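import Cfsg.Agent.H343.L5.Cyc
import Cfsg.Agent.H111.EE.K1
import Cfsg.Agent.H136.EE.Comp
import Cfsg.Agent.H865.L5.Base

/-!
# S5923, pieces B1, B2, B3, B5 (helper343): elements of order 5 of `C_W(w8)`
-/

set_option autoImplicit false
set_option linter.unusedSectionVars false

namespace Cfsg.Agent.H343.L5

open CoxeterSystem Subgroup Cfsg Cfsg.Lie Cfsg.Lie.ChevalleyDatum
open Cfsg.Agent.ChevalleyStructure Cfsg.Agent.ChevalleyStructure.Elts Cfsg.Agent.ChevalleyStructure.CoxeterGeom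
  Cfsg.Agent.ChevalleyStructure.CoxeterGeomTypes Cfsg.Agent.ChevalleyStructure.NPerm
open Cfsg.Agent.Tits.Roots Cfsg.Agent.Tits.Core Cfsg.Agent.Nodes Cfsg.Agent.Nodes.SubComb Cfsg.Agent.Nodes.Reps
  Cfsg.Agent.Nodes.BNOf Cfsg.Agent.Nodes.RGDChev Cfsg.Agent.Nodes.Bruhat Cfsg.Agent.Nodes.Coroot
open Cfsg.Agent.KFacts.RgdField Cfsg.Agent.KFacts.RgdChevCoord Cfsg.Agent.BpExc.TorCent Cfsg.Agent.BpExc.TorChev
open Cfsg.Agent.GpExc.Field Cfsg.Agent.BpExc.Tow Cfsg.Agent.BpExc.TowChev Cfsg.Agent.BpExc.Fr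
  Cfsg.Agent.BpExc.LangFr Cfsg.Agent.BpExc.FamField Cfsg.Agent.BpExc.FamInst Cfsg.Agent.H129.TorusChar
  Cfsg.Agent.H795.LangT Cfsg.Agent.BpExc.FamExt Cfsg.Agent.BpExc.FamUntw Cfsg.Agent.H378.TorDual Cfsg.Agent.H378.TorChar
  Cfsg.Agent.H378.TorFin Cfsg.Agent.H378.RankOne Cfsg.Agent.H378.RootTor Cfsg.Agent.H865.EE Cfsg.Agent.H865.L5
open Cfsg.Agent.H111.EE (PP_act PP_act_smul PP_val)
open Cfsg.Agent.H136.EE (bL bf_eq)

attribute [local irreducible] w8

/-! ### the form on roots -/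

theorem bL_tab : ∀ i : Fin 8, ∀ l ∈ RL, -1 ≤ bL (toL (sr i)) l ∨ l = toL (-(sr i : Fin 8 → ℤ)) := by
  decide +kernel

theorem bf_ge {a b : Fin 8 → ℤ} (ha : Rt a) (hb : Rt b) : -1 ≤ bf a b ∨ b = -a := by
  obtain ⟨w, i, rfl⟩ := id ha
  have h1 : Rt (act w⁻¹ b) := hb.act _
  have h2 : act w (act w⁻¹ b) = b := by rw [← act_mul, mul_inv_cancel, act_one]
  have h3 : bf (act w (sr i)) b = bf (sr i) (act w⁻¹ b) := by
    conv_lhs => rw [← h2]
    exact bf_act w _ _
  rcases bL_tab i _ ((rt_iff _).1 h1) with h | h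
  · left
    show -1 ≤ bf (act w (sr i)) b
    rw [h3, bf_eq]
    exact h
  · right
    have h4 := toL_inj h
    rw [← h2, h4, map_neg]

/-! ### the sum over the powers -/

theorem pow_apply' (u : W8) (k : ℕ) (x : Fin 8 → ℤ) : act (u ^ k) x = (act u ^ k) x := by
  show rep _ _ (u ^ k) x = _
  rw [map_pow]

theorem sum_zero {u : W8} (hu : u ∈ CW) (h5 : u ^ 5 = 1) (h1 : u ≠ 1) :
    (1 + act u + act u ^ 2 + act u ^ 3 + act u ^ 4 : Module.End ℤ (Fin 8 → ℤ)) = 0 := by
  obtain ⟨g, hg, hsum⟩ := Cfsg.Agent.BpExc.Fix.exists_root_sum_eq_zero (cs := cs8) (h := tp8.isCartan) h1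
    (by norm_num : 0 < 5) h5
  set A : Module.End ℤ (Fin 8 → ℤ) := act u with hA
  set J : Module.End ℤ (Fin 8 → ℤ) := act w8 with hJ
  have hN : (1 + A + A ^ 2 + A ^ 3 + A ^ 4 : Module.End ℤ (Fin 8 → ℤ)) g = 0 := by
    rw [← hsum]
    simp only [Finset.sum_range_succ, Finset.sum_range_zero, zero_add, LinearMap.add_apply]
    have hp : ∀ i : ℕ, rep cs8 tp8.isCartan (u ^ i) = A ^ i := fun i => by rw [map_pow]
    rw [hp, hp, hp, hp, hp, pow_zero, pow_one]
  have hA5 : A ^ 5 = 1 := by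
    rw [hA]
    show rep _ _ u ^ 5 = 1
    rw [← map_pow, h5, map_one]
  have hJ2 : J ^ 2 = -1 := by
    refine LinearMap.ext fun x => ?_
    rw [pow_two]
    exact w8_sq x
  have hAJ : Commute J A := LinearMap.ext fun x => (mem_CW.1 hu x).symm
  have e2 : (J * A) ^ 2 = -(A ^ 2) := by rw [hAJ.mul_pow, hJ2, neg_one_mul]
  have e4 : (J * A) ^ 4 = A ^ 4 := by
    rw [show (4 : ℕ) = 2 * 2 by norm_num, pow_mul, e2, neg_sq, ← pow_mul]
  have e6 : (J * A) ^ 6 = -A := by
    rw [show (6 : ℕ) = 4 + 2 by norm_num, pow_add, e4, e2, mul_neg, ← pow_add, show 4 + 2 = 5 + 1 by norm_num,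
      pow_add, hA5, one_mul, pow_one]
  have e8 : (J * A) ^ 8 = A ^ 3 := by
    calc (J * A) ^ 8 = (J * A) ^ 4 * (J * A) ^ 4 := pow_add (J * A) 4 4
      _ = A ^ 5 * A ^ 3 := by rw [e4, ← pow_add, ← pow_add]
      _ = A ^ 3 := by rw [hA5, one_mul]
  have e : (J * A) ^ 8 - (J * A) ^ 6 + (J * A) ^ 4 - (J * A) ^ 2 + 1 = 1 + A + A ^ 2 + A ^ 3 + A ^ 4 := by
    rw [e2, e4, e6, e8]
    abel
  have hg0 : g ≠ 0 := by
    rintro rfl
    have h2 := bf_self hg
    have h3 : bf (0 : Fin 8 → ℤ) 0 = 0 := by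
      have := bf_smul_left 0 (0 : Fin 8 → ℤ) 0
      rwa [zero_smul, zero_mul] at this
    rw [h3] at h2
    norm_num at h2
  rw [← e]
  apply end_cyc hg0
  rw [e]
  exact hN

/-- the powers of `u` on a vector -/
theorem sum_zero' {u : W8} (hu : u ∈ CW) (h5 : u ^ 5 = 1) (h1 : u ≠ 1) (x : Fin 8 → ℤ) :
    x + act u x + act u (act u x) + act u (act u (act u x)) + act u (act u (act u (act u x))) = 0 := by
  have h := LinearMap.congr_fun (sum_zero hu h5 h1) x
  exact h

/-! ### B1 -/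

theorem sq_ne {u : W8} (hu : u ∈ CW) (h5 : u ^ 5 = 1) (h1 : u ≠ 1) {a : Fin 8 → ℤ} (ha : Rt a) :
    PP (act u (act u a)) - 2 • PP (act u a) + PP a ≠ 0 := by
  intro h0
  obtain ⟨x1, hx1⟩ : ∃ x, x = act u a := ⟨_, rfl⟩
  obtain ⟨x2, hx2⟩ : ∃ x, x = act u x1 := ⟨_, rfl⟩
  obtain ⟨x3, hx3⟩ : ∃ x, x = act u x2 := ⟨_, rfl⟩
  obtain ⟨x4, hx4⟩ : ∃ x, x = act u x3 := ⟨_, rfl⟩
  have hx5 : act u x4 = a := by
    rw [hx4, hx3, hx2, hx1, ← act_mul, ← act_mul, ← act_mul, ← act_mul,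
      show u * u * u * u * u = u ^ 5 by simp only [pow_succ, pow_zero, one_mul], h5, act_one]
  have hs : a + x1 + x2 + x3 + x4 = 0 := by
    rw [hx4, hx3, hx2, hx1]
    exact sum_zero' hu h5 h1 a
  have r1 : Rt x1 := hx1 ▸ rt_act ha u
  have r2 : Rt x2 := hx2 ▸ rt_act r1 u
  have r3 : Rt x3 := hx3 ▸ rt_act r2 u
  have r4 : Rt x4 := hx4 ▸ rt_act r3 u
  -- `PP` on the powers
  have hadd : ∀ {x y z : Fin 8 → ℤ}, PP x = PP y + PP z → PP (act u x) = PP (act u y) + PP (act u z) := by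
    intro x y z h
    rw [← map_add] at h ⊢
    rw [← map_add]
    exact PP_act hu h
  have p2 : PP x2 = 2 • PP x1 - PP a := by
    rw [← hx1, ← hx2] at h0
    rw [← sub_eq_zero, ← h0]
    abel
  have p3 : PP x3 = 2 • PP x2 - PP x1 := by
    have e1 : PP (x2 + a) = PP ((2 : ℕ) • x1) := by
      rw [map_add, map_nsmul, p2]
      abel
    have e2 := PP_act hu e1
    rw [map_add, map_nsmul, ← hx3, ← hx1, ← hx2, map_add, map_nsmul] at e2
    rw [← e2]
    abel
  -- inner products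
  obtain ⟨α, hα⟩ : ∃ t, t = bf a x1 := ⟨_, rfl⟩
  obtain ⟨β, hβ⟩ : ∃ t, t = bf a x2 := ⟨_, rfl⟩
  have b01 : bf a x1 = α := hα.symm
  have b02 : bf a x2 = β := hβ.symm
  have b12 : bf x1 x2 = α := by rw [hα, ← bf_act u a x1, ← hx1, ← hx2]
  have b13 : bf x1 x3 = β := by rw [hβ, ← bf_act u a x2, ← hx1, ← hx3]
  have b23 : bf x2 x3 = α := by rw [← b12, ← bf_act u x1 x2, ← hx2, ← hx3]
  have b24 : bf x2 x4 = β := by rw [← b13, ← bf_act u x1 x3, ← hx2, ← hx4]
  have b34 : bf x3 x4 = α := by rw [← b23, ← bf_act u x2 x3, ← hx3, ← hx4]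
  have b30 : bf x3 a = β := by rw [← b24, ← bf_act u x2 x4, ← hx3, hx5]
  have b40 : bf x4 a = α := by rw [← b34, ← bf_act u x3 x4, ← hx4, hx5]
  have b41 : bf x4 x1 = β := by rw [← b30, ← bf_act u x3 a, ← hx4, ← hx1]
  have b11 : bf x1 x1 = 2 := bf_self r1
  have b33 : bf x3 x3 = 2 := bf_self r3
  have hab : α + β = -1 := by
    have e1 : bf a (a + x1 + x2 + x3 + x4) = 0 := by
      rw [hs]
      have := bf_smul_right 0 a a
      rwa [zero_smul, zero_mul] at this
    rw [bf_add_right, bf_add_right, bf_add_right, bf_add_right, bf_self ha, b01, b02, bf_comm a x3, b30,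
      bf_comm a x4, b40] at e1
    omega
  have hneg : a ≠ -a := by
    intro h
    have e1 := bf_neg_right a a
    rw [← h, bf_self ha] at e1
    omega
  have hα1 : -1 ≤ α := by
    rcases bf_ge ha r1 with h | h
    · rw [hα]; exact h
    · exfalso
      apply hneg
      have e1 : x1 = -a := h
      have e2 : x2 = a := by rw [hx2, e1, map_neg, ← hx1, e1, neg_neg]
      have e3 : x3 = -a := by rw [hx3, e2, ← hx1, e1]
      have e4 : x4 = a := by rw [hx4, e3, map_neg, ← hx1, e1, neg_neg]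
      have e5 := hx5
      rw [e4, ← hx1, e1] at e5
      exact e5.symm
  have hβ1 : -1 ≤ β := by
    rcases bf_ge ha r2 with h | h
    · rw [hβ]; exact h
    · exfalso
      apply hneg
      have e2 : x2 = -a := h
      have e3 : x3 = -x1 := by rw [hx3, e2, map_neg, ← hx1]
      have e4 : x4 = a := by rw [hx4, e3, map_neg, ← hx2, e2, neg_neg]
      have e5 : x1 = a := by
        have e6 := hx5
        rwa [e4, ← hx1] at e6
      have e7 : x2 = a := by rw [hx2, e5, ← hx1, e5]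
      rw [← e2, e7]
  -- the two cases
  have hw : ∀ {x : Fin 8 → ℤ}, act u (act w8 x) = act w8 (act u x) := fun {x} => mem_CW.1 hu x
  have hcase : α = -1 ∨ β = -1 := by omega
  rcases hcase with hα2 | hβ2
  · have e1 : Rt (x1 + a) := by
      have h := rt_act r1 (rf a)
      rwa [act_rf ha, bf_comm, b01, hα2, neg_one_smul, sub_neg_eq_add] at h
    have e2 : act w8 x3 = x1 + a := by
      apply PP_inj (rt_act r3 w8) e1
      rw [PP_w8, p3, p2, map_add]
      have h5' : (5 : ℕ) • (PP x1 - PP a) = 0 := by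
        funext i
        rw [Pi.smul_apply, nsmul_eq_mul, show ((5 : ℕ) : ZMod 5) = 0 from rfl, zero_mul, Pi.zero_apply]
      have e3 : (2 : ℕ) • ((2 : ℕ) • ((2 : ℕ) • PP x1 - PP a) - PP x1) = (5 : ℕ) • (PP x1 - PP a) + (PP x1 + PP a) := by
        module
      rw [e3, h5', zero_add]
    have e4 : act w8 x4 = x2 + x1 := by
      have h := congrArg (fun x => act u x) e2
      simp only [hw, map_add] at h
      rwa [← hx4, ← hx2, ← hx1] at h
    have e5 : act w8 a = x3 + x2 := by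
      have h := congrArg (fun x => act u x) e4
      simp only [hw, map_add] at h
      rwa [hx5, ← hx3, ← hx2] at h
    have e6 : act w8 x1 = x4 + x3 := by
      have h := congrArg (fun x => act u x) e5
      simp only [hw, map_add] at h
      rwa [← hx1, ← hx4, ← hx3] at h
    have e7 := congrArg (fun x => act w8 x) e2
    simp only [map_add, w8_sq, e6, e5] at e7
    have e8 := congrArg (fun x => bf x x3) e7
    simp only [bf_add_left, bf_neg_left] at e8
    rw [b33, bf_comm x4, b34, b23] at e8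
    omega
  · have e1 : Rt (x2 + a) := by
      have h := rt_act r2 (rf a)
      rwa [act_rf ha, bf_comm, b02, hβ2, neg_one_smul, sub_neg_eq_add] at h
    have e2 : act w8 x1 = x2 + a := by
      apply PP_inj (rt_act r1 w8) e1
      rw [PP_w8, map_add, p2]
      abel
    have e3 : act w8 x2 = x3 + x1 := by
      have h := congrArg (fun x => act u x) e2
      simp only [hw, map_add] at h
      rwa [← hx2, ← hx3, ← hx1] at h
    have e4 : act w8 x3 = x4 + x2 := by
      have h := congrArg (fun x => act u x) e3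
      simp only [hw, map_add] at h
      rwa [← hx3, ← hx4, ← hx2] at h
    have e5 : act w8 x4 = a + x3 := by
      have h := congrArg (fun x => act u x) e4
      simp only [hw, map_add] at h
      rwa [← hx4, hx5, ← hx3] at h
    have e6 : act w8 a = x1 + x4 := by
      have h := congrArg (fun x => act u x) e5
      simp only [hw, map_add] at h
      rwa [hx5, ← hx1, ← hx4] at h
    have e7 := congrArg (fun x => act w8 x) e2
    simp only [map_add, w8_sq, e3, e6] at e7
    have e8 := congrArg (fun x => bf x x1) e7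
    simp only [bf_add_left, bf_neg_left] at e8
    rw [b11, bf_comm x3, b13, b41] at e8
    omega

/-! ### B2 -/

theorem toMatrix_act (v : W8) (i j : Fin 8) : LinearMap.toMatrix' (act v) i j = act v (sr j) i := by
  rw [LinearMap.toMatrix'_apply]
  congr 2

theorem fix_zero {u : W8} (hu : u ∈ CW) (h5 : u ^ 5 = 1) (h1 : u ≠ 1) {K : Type} [Field K] [CharP K 3]
    (c : Fin 8 → K) (h : ∀ i, ∑ j, ((act u (sr j) i : ℤ) : K) * c j = c i) : c = 0 := by
  set F : Module.End ℤ (Fin 8 → ℤ) →+* Matrix (Fin 8) (Fin 8) K :=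
    ((Int.castRingHom K).mapMatrix (m := Fin 8)).comp
      (LinearMap.toMatrixAlgEquiv' (R := ℤ) (n := Fin 8)).toRingEquiv.toRingHom with hF
  have hFc : (F (act u)).mulVec c = c := by
    funext i
    rw [← h i]
    simp only [Matrix.mulVec, dotProduct]
    refine Finset.sum_congr rfl fun j _ => ?_
    rw [← toMatrix_act]
    rfl
  have hpow : ∀ k : ℕ, (F (act u ^ k)).mulVec c = c := by
    intro k
    induction k with
    | zero => rw [pow_zero, map_one, Matrix.one_mulVec]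
    | succ k ih => rw [pow_succ, map_mul, ← Matrix.mulVec_mulVec, hFc, ih]
  have h2 := congrArg (fun T : Module.End ℤ (Fin 8 → ℤ) => (F T).mulVec c) (sum_zero hu h5 h1)
  simp only [map_add, map_zero, Matrix.add_mulVec, Matrix.zero_mulVec, map_one, Matrix.one_mulVec, hFc, hpow] at h2
  funext i
  have h3 := congrFun h2 i
  simp only [Pi.add_apply, Pi.zero_apply] at h3 ⊢
  have h4 : (3 : K) = 0 := by exact_mod_cast CharP.cast_eq_zero K 3
  have h5' : (5 : K) * c i = 0 := by linear_combination h3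
  rcases mul_eq_zero.1 h5' with h6 | h6
  · exfalso
    apply one_ne_zero (α := K)
    linear_combination 2 * h4 - h6
  · exact h6

/-! ### the action on `F₅⁴` -/

/-- a section of `PP` -/
noncomputable def sec (c : Fin 4 → ZMod 5) : Fin 8 → ℤ := (PP_surj c).choose

theorem PP_sec (c : Fin 4 → ZMod 5) : PP (sec c) = c := (PP_surj c).choose_spec

/-- the action of `u` on `F₅⁴` -/
noncomputable def Ab {u : W8} (hu : u ∈ CW) : Module.End (ZMod 5) (Fin 4 → ZMod 5) where
  toFun c := PP (act u (sec c))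
  map_add' c d := by
    rw [← map_add, ← map_add]
    exact PP_act hu (by rw [PP_sec, map_add, PP_sec, PP_sec])
  map_smul' r c := by
    show PP (act u (sec (r • c))) = r • PP (act u (sec c))
    exact PP_act_smul hu (by rw [PP_sec, PP_sec])

theorem Ab_PP {u : W8} (hu : u ∈ CW) (x : Fin 8 → ℤ) : Ab hu (PP x) = PP (act u x) := PP_act hu (PP_sec _)

theorem Ab_pow {u : W8} (hu : u ∈ CW) (k : ℕ) (x : Fin 8 → ℤ) : (Ab hu ^ k) (PP x) = PP (act (u ^ k) x) := by
  induction k generalizing x with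
  | zero => rw [pow_zero, pow_zero, act_one, Module.End.one_apply]
  | succ k ih => rw [pow_succ, Module.End.mul_apply, Ab_PP, ih, pow_succ, act_mul]

theorem Ab_pow_one {u : W8} (hu : u ∈ CW) {k : ℕ} (h : u ^ k = 1) : Ab hu ^ k = 1 := by
  refine LinearMap.ext fun c => ?_
  rw [← PP_sec c, Ab_pow, h, act_one, Module.End.one_apply]

theorem pow_one_of_Ab {u : W8} (hu : u ∈ CW) {k : ℕ} (h : Ab hu ^ k = 1) : u ^ k = 1 := by
  have h1 : ∀ a, Rt a → act (u ^ k) a = a := by
    intro a ha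
    apply PP_inj (rt_act ha _) ha
    rw [← Ab_pow hu, h, Module.End.one_apply]
  refine act_ext fun x => ?_
  rw [act_one]
  have h2 : act (u ^ k) = LinearMap.id := by
    refine LinearMap.pi_ext' fun j => LinearMap.ext_ring ?_
    exact h1 (sr j) ⟨1, j, act_one _⟩
  rw [h2, LinearMap.id_apply]

open Polynomial in
theorem nil_five {u : W8} (hu : u ∈ CW) {n : ℕ} (h : u ^ 5 ^ n = 1) : (Ab hu - 1) ^ 4 = 0 := by
  have h1 : (Ab hu - 1) ^ 5 ^ n = 0 := by
    have e1 : (X - 1 : (ZMod 5)[X]) ^ 5 ^ n = X ^ 5 ^ n - 1 ^ 5 ^ n := sub_pow_char_pow _ _ _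
    have e2 := congrArg (aeval (Ab hu)) e1
    simp only [map_pow, map_sub, aeval_X, map_one, one_pow] at e2
    rw [e2, Ab_pow_one hu h, sub_self]
  have h2 := Module.End.ker_pow_le_ker_pow_finrank (Ab hu - 1) (5 ^ n)
  rw [h1, LinearMap.ker_zero, top_le_iff, Module.finrank_fin_fun, LinearMap.ker_eq_top] at h2
  exact h2

open Polynomial in
theorem five_elt {u : W8} (hu : u ∈ CW) {n : ℕ} (h : u ^ 5 ^ n = 1) : u ^ 5 = 1 := by
  apply pow_one_of_Ab hu
  have h1 : (Ab hu - 1) ^ 5 = 0 := by rw [pow_succ, nil_five hu h, zero_mul]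
  have e1 : (X - 1 : (ZMod 5)[X]) ^ 5 ^ 1 = X ^ 5 ^ 1 - 1 ^ 5 ^ 1 := sub_pow_char_pow _ _ _
  rw [pow_one] at e1
  have e2 := congrArg (aeval (Ab hu)) e1
  simp only [map_pow, map_sub, aeval_X, map_one, one_pow] at e2
  rw [h1] at e2
  exact sub_eq_zero.1 e2.symm

/-! ### B3 -/

/-- partial sums of a chain of five simple roots -/
def bs : Fin 6 → Fin 8 → ℤ := ![![0, 0, 0, 0, 0, 0, 0, 0], ![1, 0, 0, 0, 0, 0, 0, 0], ![1, 0, 1, 0, 0, 0, 0, 0],
  ![1, 0, 1, 1, 0, 0, 0, 0], ![1, 0, 1, 1, 1, 0, 0, 0], ![1, 0, 1, 1, 1, 1, 0, 0]]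

theorem bs_tab : ∀ i j : Fin 6, i ≠ j → toL (bs i - bs j) ∈ RL := by decide +kernel

theorem bs_rt {i j : Fin 6} (h : i ≠ j) : Rt (bs i - bs j) := (rt_iff _).2 (bs_tab i j h)

theorem fix_line {u : W8} (hu : u ∈ CW) (h5 : u ^ 5 = 1) (h1 : u ≠ 1) {φ ψ : Module.Dual (ZMod 5) (Fin 4 → ZMod 5)}
    (hφ : ∀ x, φ (PP (act u x)) = φ (PP x)) (hψ : ∀ x, ψ (PP (act u x)) = ψ (PP x)) (h0 : φ ≠ 0) :
    ∃ c : ZMod 5, ψ = c • φ := by
  by_contra hcon
  push Not at hcon
  set N : Module.End (ZMod 5) (Fin 4 → ZMod 5) := Ab hu - 1 with hN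
  have hNPP : ∀ x, N (PP x) = PP (act u x) - PP x := fun x => by
    rw [hN, LinearMap.sub_apply, Ab_PP, Module.End.one_apply]
  have hN4 : N ^ 4 = 0 := nil_five (n := 1) hu (by rwa [pow_one])
  -- the range of `N` has dimension at most 2
  have hφN : φ ∈ (LinearMap.range N).dualAnnihilator := by
    rw [Submodule.mem_dualAnnihilator]
    rintro _ ⟨c, rfl⟩
    rw [← PP_sec c, hNPP, map_sub, hφ, sub_self]
  have hψN : ψ ∈ (LinearMap.range N).dualAnnihilator := by
    rw [Submodule.mem_dualAnnihilator]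
    rintro _ ⟨c, rfl⟩
    rw [← PP_sec c, hNPP, map_sub, hψ, sub_self]
  have hli : LinearIndependent (ZMod 5) ![φ, ψ] := by
    rw [LinearIndependent.pair_iff' h0]
    intro c hc
    exact hcon c hc.symm
  have hd1 : 2 ≤ Module.finrank (ZMod 5) (LinearMap.range N).dualAnnihilator := by
    have h2 := finrank_span_eq_card hli
    rw [Fintype.card_fin] at h2
    refine h2.symm.le.trans (Submodule.finrank_mono ?_)
    rw [Submodule.span_le]
    rintro _ ⟨i, rfl⟩
    fin_cases i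
    · exact hφN
    · exact hψN
  have hd2 := Subspace.finrank_add_finrank_dualAnnihilator_eq (LinearMap.range N)
  rw [Module.finrank_fin_fun] at hd2
  -- the range of `N²` has dimension at most 1
  have hle : LinearMap.range (N ^ 2) ≤ LinearMap.range N := by
    rw [pow_two]
    exact LinearMap.range_comp_le_range _ _
  have hd3 : Module.finrank (ZMod 5) (LinearMap.range (N ^ 2)) ≤ 1 := by
    by_contra hgt
    have h2 : LinearMap.range (N ^ 2) = LinearMap.range N :=
      Submodule.eq_of_le_of_finrank_le hle (by omega)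
    have h3 : LinearMap.range (N ^ 4) = LinearMap.range N := by
      have e1 : LinearMap.range (N ^ 3) = LinearMap.range N := by
        rw [show (3 : ℕ) = 1 + 2 by norm_num, pow_add, pow_one, Module.End.mul_eq_comp, LinearMap.range_comp, h2,
          ← LinearMap.range_comp, ← Module.End.mul_eq_comp, ← pow_two, h2]
      rw [show N ^ 4 = N * N ^ 3 from pow_succ' N 3, Module.End.mul_eq_comp, LinearMap.range_comp, e1,
        ← LinearMap.range_comp, ← Module.End.mul_eq_comp, ← pow_two, h2]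
    rw [hN4, LinearMap.range_zero] at h3
    rw [h2, ← h3, finrank_bot] at hgt
    omega
  -- pigeonhole
  have hcard : Nat.card (LinearMap.range (N ^ 2)) ≤ 5 := by
    rw [Module.natCard_eq_pow_finrank (K := ZMod 5), Nat.card_zmod]
    calc 5 ^ Module.finrank (ZMod 5) (LinearMap.range (N ^ 2)) ≤ 5 ^ 1 := Nat.pow_le_pow_right (by norm_num) hd3
      _ = 5 := by norm_num
  have hfin : Finite (LinearMap.range (N ^ 2)) := inferInstance
  have : Fintype (LinearMap.range (N ^ 2)) := Fintype.ofFinite _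
  obtain ⟨i, j, hij, heq⟩ := Fintype.exists_ne_map_eq_of_card_lt
    (fun i : Fin 6 => (⟨(N ^ 2) (PP (bs i)), LinearMap.mem_range_self _ _⟩ : LinearMap.range (N ^ 2))) (by
      rw [Fintype.card_fin, ← Nat.card_eq_fintype_card]
      omega)
  have h2 : (N ^ 2) (PP (bs i)) = (N ^ 2) (PP (bs j)) := congrArg Subtype.val heq
  apply sq_ne hu h5 h1 (bs_rt hij)
  have h3 : (N ^ 2) (PP (bs i - bs j)) = 0 := by rw [map_sub, map_sub, h2, sub_self]
  rw [pow_two, Module.End.mul_apply, hNPP, map_sub, hNPP, hNPP] at h3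
  rw [← h3]
  abel

end Cfsg.Agent.H343.L5
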